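import Cfsg.Agent.H386.ExtPrim
import Cfsg.Agent.H386.Factor
import Cfsg.Agent.H386.PrimTools
import Cfsg.Agent.S0023
import Cfsg.Agent.S0024
import Cfsg.Agent.S0043

/-!
An extremely primitive group is of affine type or almost simple (assuming the odd order theorem).
-/

set_option autoImplicit false

namespace Cfsg.Agent.H386.ExtPrimTypes

open MulAction
open scoped Pointwise commutatorElement
open Cfsg.Agent.H386.ExtPrim Cfsg.Agent.H386.Factor Cfsg.Agent.H386.PrimTools

universe u v

variable {G : Type u} [Group G] {Ω : Type v} [MulAction G Ω]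

/-- A pair of mutually inverse points: the orbit has length two. -/
theorem inverse_pair {α : Ω}
    (hep : ∀ ω : Ω, IsPreprimitive (stabilizer G α) (orbit (stabilizer G α) ω))
    (X : Subgroup G) (htr : ∀ ω : Ω, ∃ x ∈ X, x • α = ω)
    (hreg : ∀ x ∈ X, x • α = α → x = 1)
    (hequi : ∀ g ∈ stabilizer G α, ∀ x ∈ X, ∀ y ∈ X, g • x • α = y • α → g • x⁻¹ • α = y⁻¹ • α)
    {a w : G} (ha : a ∈ stabilizer G α) (hw : w ∈ X) (haw : a • w • α = w⁻¹ • α)
    (hw2 : w * w ≠ 1) {g : G} (hg : g ∈ stabilizer G α) :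
    g • w • α = w • α ∨ g • w • α = w⁻¹ • α := by
  classical
  have huniq : ∀ x ∈ X, ∀ y ∈ X, x • α = y • α → x = y := by
    intro x hx y hy h
    have h1 := hreg (y⁻¹ * x) (X.mul_mem (X.inv_mem hy) hx) (by rw [mul_smul, h, inv_smul_smul])
    exact (inv_mul_eq_one.1 h1).symm
  let Δ := orbit (stabilizer G α) (w • α)
  have hprim : IsPreprimitive (stabilizer G α) Δ := hep (w • α)
  -- the relation
  let inv : Ω → Ω → Prop := fun p q => ∃ x ∈ X, x • α = p ∧ x⁻¹ • α = q
  have hinv_fun : ∀ p q q', inv p q → inv p q' → q = q' := by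
    rintro p q q' ⟨x, hx, h1, h2⟩ ⟨y, hy, h3, h4⟩
    have := huniq x hx y hy (h1.trans h3.symm)
    rw [← h2, ← h4, this]
  have hinv_symm : ∀ p q, inv p q → inv q p := by
    rintro p q ⟨x, hx, h1, h2⟩
    exact ⟨x⁻¹, X.inv_mem hx, h2, by rw [inv_inv]; exact h1⟩
  have hinv_equi : ∀ h ∈ stabilizer G α, ∀ p q, inv p q → inv (h • p) (h • q) := by
    rintro h hh p q ⟨x, hx, rfl, rfl⟩
    obtain ⟨y, hy, hyx⟩ := htr (h • x • α)
    exact ⟨y, hy, hyx, (hequi h hh x hx y hy hyx.symm).symm⟩
  rcases eq_or_univ_of_invariant (G := stabilizer G α) (Ω := Δ)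
    (fun p q => p = q ∨ inv p q)
    ⟨fun _ => Or.inl rfl, by
      rintro p q (h | h)
      · exact Or.inl h.symm
      · exact Or.inr (hinv_symm _ _ h), by
      rintro p q r (h | h) (h' | h')
      · exact Or.inl (h.trans h')
      · rw [h]; exact Or.inr h'
      · rw [← h']; exact Or.inr h
      · exact Or.inl (Subtype.ext (hinv_fun _ _ _ (hinv_symm _ _ h) h'))⟩
    (by
      rintro h p q (h' | h')
      · rw [h']; exact Or.inl rfl
      · exact Or.inr (hinv_equi h.1 h.2 _ _ h')) with h | h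
  · exfalso
    have h1 : (⟨w • α, mem_orbit_self _⟩ : Δ) = ⟨a • w • α, ⟨⟨a, ha⟩, rfl⟩⟩ :=
      h _ _ (Or.inr ⟨w, hw, rfl, haw.symm⟩)
    have h2 : w • α = w⁻¹ • α := (congrArg Subtype.val h1).trans haw
    have h3 := huniq w hw _ (X.inv_mem hw) h2
    apply hw2
    nth_rewrite 2 [h3]
    exact mul_inv_cancel w
  · rcases h ⟨w • α, mem_orbit_self _⟩ ⟨g • w • α, ⟨⟨g, hg⟩, rfl⟩⟩ with h1 | h1
    · exact Or.inl (congrArg Subtype.val h1).symm
    · right
      obtain ⟨x, hx, h2, h3⟩ := h1
      have h2' : x • α = w • α := h2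
      have h3' : x⁻¹ • α = g • w • α := h3
      rw [← h3', huniq x hx w hw h2']

section Regular

variable [Finite G] [Finite Ω] [FaithfulSMul G Ω] [IsPreprimitive G Ω] [Nontrivial Ω]

omit [Finite Ω] in
/-- In an extremely primitive group a regular non-abelian minimal normal subgroup forces point
stabilizers of odd order. -/
theorem eq_one_of_sq_eq_one {α : Ω}
    (hep : ∀ ω : Ω, IsPreprimitive (stabilizer G α) (orbit (stabilizer G α) ω))
    (N : Subgroup G) [hN : N.Normal] (hN0 : N ≠ ⊥)
    (hmin : ∀ M : Subgroup G, M.Normal → M ≤ N → M = ⊥ ∨ M = N)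
    (hna : ¬ ∀ x ∈ N, ∀ y ∈ N, Commute x y) (hreg : ∀ n ∈ N, n • α = α → n = 1)
    {a : G} (ha : a ∈ stabilizer G α) (ha2 : a * a = 1) : a = 1 := by
  obtain ⟨T, hT⟩ := exists_factor N hmin hna
  have htr : ∀ ω : Ω, ∃ n ∈ N, n • α = ω := fun ω => exists_smul_eq_of_normal N hN0 α ω
  have hfixinv : ∀ g ∈ stabilizer G α, g⁻¹ • α = α := fun g hg => by
    rw [inv_smul_eq_iff]; exact (mem_stabilizer_iff.1 hg).symm
  have hact : ∀ g ∈ stabilizer G α, ∀ n : G, g • n • α = (g * n * g⁻¹) • α := by
    intro g hg n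
    rw [mul_smul, mul_smul, hfixinv g hg]
  have huniq : ∀ x ∈ N, ∀ y ∈ N, x • α = y • α → x = y := by
    intro x hx y hy h
    have h1 := hreg (y⁻¹ * x) (N.mul_mem (N.inv_mem hy) hx) (by rw [mul_smul, h, inv_smul_smul])
    exact (inv_mul_eq_one.1 h1).symm
  have hainv : a⁻¹ = a := inv_eq_of_mul_eq_one_left ha2
  -- commutators with `a`
  let W : G → G := fun n => n⁻¹ * (a * n * a⁻¹)
  have hWN : ∀ n ∈ N, W n ∈ N := fun n hn => N.mul_mem (N.inv_mem hn) (hN.conj_mem n hn a)
  have hWa : ∀ n, a * W n * a⁻¹ = (W n)⁻¹ := by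
    intro n
    simp only [W]
    have h1 : a * (n⁻¹ * (a * n * a⁻¹)) * a⁻¹ = a * n⁻¹ * (a * n * (a⁻¹ * a⁻¹)) := by group
    have h2 : a⁻¹ * a⁻¹ = 1 := by rw [hainv, ha2]
    rw [h1, h2, mul_one, mul_inv_rev, mul_inv_rev, mul_inv_rev, inv_inv, inv_inv, hainv]
    group
  have hW2 : ∀ n ∈ N, W n * W n = 1 := by
    intro n hn
    by_contra hne
    have hpair : ∀ g ∈ stabilizer G α, g * W n * g⁻¹ = W n ∨ g * W n * g⁻¹ = (W n)⁻¹ := by
      intro g hg
      have hconj := hN.conj_mem _ (hWN n hn) g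
      rcases inverse_pair (G := G) hep N htr hreg (by
          intro g hg x hx y hy h
          rw [hact g hg] at h ⊢
          have h1 := huniq _ (hN.conj_mem x hx g) y hy h
          rw [← h1]
          congr 1
          group) ha (hWN n hn) (by rw [hact a ha, hWa]) hne hg with h | h
      · left
        rw [hact g hg] at h
        exact huniq _ hconj _ (hWN n hn) h
      · right
        rw [hact g hg] at h
        exact huniq _ hconj _ (N.inv_mem (hWN n hn)) h
    -- the cyclic group of `W n` is invariant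
    have hM : ∀ g ∈ stabilizer G α, ∀ m ∈ Subgroup.zpowers (W n), g * m * g⁻¹ ∈
        Subgroup.zpowers (W n) := by
      rintro g hg _ ⟨k, rfl⟩
      simp only
      rw [← conj_zpow]
      rcases hpair g hg with h | h
      · rw [h]
        exact Subgroup.zpow_mem _ (Subgroup.mem_zpowers _) _
      · rw [h]
        exact Subgroup.zpow_mem _ (Subgroup.inv_mem _ (Subgroup.mem_zpowers _)) _
    have hMn : ¬ Subgroup.zpowers (W n) ≤ stabilizer G α := by
      intro h
      have h1 := hreg _ (hWN n hn) (h (Subgroup.mem_zpowers _))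
      rw [h1, mul_one] at hne
      exact hne rfl
    have hNM : ∀ m ∈ N, m ∈ Subgroup.zpowers (W n) := by
      intro m hm
      obtain ⟨k, hk, hkm⟩ := exists_smul_eq_of_invariant (G := G) _ hM hMn (m • α)
      have hkN : k ∈ N := (Subgroup.zpowers_le.2 (hWN n hn)) hk
      rw [← huniq k hkN m hm hkm]
      exact hk
    apply hna
    intro x hx y hy
    obtain ⟨i, hi⟩ := Subgroup.mem_zpowers_iff.1 (hNM x hx)
    obtain ⟨j, hj⟩ := Subgroup.mem_zpowers_iff.1 (hNM y hy)
    rw [← hi, ← hj]
    exact (Commute.refl (W n)).zpow_zpow i j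
  have hcomm : ∀ n ∈ N, a * W n = W n * a := by
    intro n hn
    have h1 : (W n)⁻¹ = W n := inv_eq_of_mul_eq_one_left (hW2 n hn)
    have h2 := hWa n
    rw [h1] at h2
    rw [← mul_inv_eq_iff_eq_mul]
    exact h2
  -- the normal subgroup generated by the commutators
  let K : Subgroup G := Subgroup.closure {w | ∃ n ∈ N, w = W n}
  have hKgen : ∀ n ∈ N, W n ∈ K := fun n hn => Subgroup.subset_closure ⟨n, hn, rfl⟩
  have hKN : K ≤ N := by
    rw [Subgroup.closure_le]
    rintro _ ⟨n, hn, rfl⟩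
    exact hWN n hn
  have hKn : ∀ n ∈ N, ∀ k ∈ K, n * k * n⁻¹ ∈ K := by
    intro n hn k hk
    induction hk using Subgroup.closure_induction with
    | mem x hx =>
      obtain ⟨m, hm, rfl⟩ := hx
      have h1 : n * W m * n⁻¹ = W (m * n⁻¹) * (W n⁻¹)⁻¹ := by
        simp only [W]
        group
      rw [h1]
      exact K.mul_mem (hKgen _ (N.mul_mem hm (N.inv_mem hn))) (K.inv_mem (hKgen _ (N.inv_mem hn)))
    | one => simp
    | mul x y _ _ hx hy =>
      have : n * (x * y) * n⁻¹ = (n * x * n⁻¹) * (n * y * n⁻¹) := by group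
      rw [this]
      exact K.mul_mem hx hy
    | inv x _ hx =>
      have : n * x⁻¹ * n⁻¹ = (n * x * n⁻¹)⁻¹ := by group
      rw [this]
      exact K.inv_mem hx
  have hKa : ∀ k ∈ K, a * k = k * a := by
    have : K ≤ Subgroup.centralizer {a} := by
      rw [Subgroup.closure_le]
      rintro _ ⟨n, hn, rfl⟩
      rw [SetLike.mem_coe, Subgroup.mem_centralizer_singleton_iff]
      exact (hcomm n hn).symm
    intro k hk
    have h1 := this hk
    rw [Subgroup.mem_centralizer_singleton_iff] at h1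
    exact h1.symm
  have hKW : ∀ k ∈ K, ∀ n ∈ N, k * W n = W n * k := by
    intro k hk n hn
    -- `n k n⁻¹ ∈ K` commutes with `a`
    have h1 := hKa _ (hKn n hn k hk)
    have h2 := hKa k hk
    -- so `k` commutes with `n⁻¹ a n`
    have h3 : (n⁻¹ * a * n) * k = k * (n⁻¹ * a * n) := by
      have h4 : (n⁻¹ * a * n) * k = n⁻¹ * (a * (n * k * n⁻¹)) * n := by group
      have h5 : k * (n⁻¹ * a * n) = n⁻¹ * ((n * k * n⁻¹) * a) * n := by group
      rw [h4, h5, h1]
    have h6 : W n = (n⁻¹ * a * n) * a⁻¹ := by simp only [W]; group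
    have h7 : a⁻¹ * k = k * a⁻¹ := by rw [hainv]; exact h2
    rw [h6, ← mul_assoc k, ← h3, mul_assoc _ k, ← h7, ← mul_assoc]
  have hab : ∀ x ∈ K, ∀ y ∈ K, x * y = y * x := by
    intro x hx y hy
    have : K ≤ Subgroup.centralizer {x} := by
      rw [Subgroup.closure_le]
      rintro _ ⟨n, hn, rfl⟩
      rw [SetLike.mem_coe, Subgroup.mem_centralizer_singleton_iff]
      exact (hKW x hx n hn).symm
    have h1 := this hy
    rw [Subgroup.mem_centralizer_singleton_iff] at h1
    exact h1.symm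
  have hKbot := eq_bot_of_abelian hmin hna hT hKN hKn hab
  have hW1 : ∀ n ∈ N, W n = 1 := by
    intro n hn
    have h1 := hKgen n hn
    rw [hKbot, Subgroup.mem_bot] at h1
    exact h1
  apply eq_one_of_commute N htr (m := a) _ (mem_stabilizer_iff.1 ha)
  intro n hn
  have h1 := hW1 n hn
  simp only [W] at h1
  rw [inv_mul_eq_one] at h1
  exact (mul_inv_eq_iff_eq_mul.1 h1.symm)

/-- In an extremely primitive group no non-abelian minimal normal subgroup is regular. -/
theorem false_of_regular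
    (hFT : ∀ (H : Subgroup G), Odd (Nat.card H) → Group.IsSolvable H) {α : Ω}
    (hep : ∀ ω : Ω, IsPreprimitive (stabilizer G α) (orbit (stabilizer G α) ω))
    (N : Subgroup G) [hN : N.Normal] (hN0 : N ≠ ⊥)
    (hmin : ∀ M : Subgroup G, M.Normal → M ≤ N → M = ⊥ ∨ M = N)
    (hna : ¬ ∀ x ∈ N, ∀ y ∈ N, Commute x y) (hreg : ∀ n ∈ N, n • α = α → n = 1) : False := by
  classical
  have htr : ∀ ω : Ω, ∃ n ∈ N, n • α = ω := fun ω => exists_smul_eq_of_normal N hN0 α ω
  have huniq : ∀ x ∈ N, ∀ y ∈ N, x • α = y • α → x = y := by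
    intro x hx y hy h
    have h1 := hreg (y⁻¹ * x) (N.mul_mem (N.inv_mem hy) hx) (by rw [mul_smul, h, inv_smul_smul])
    exact (inv_mul_eq_one.1 h1).symm
  -- an invariant subgroup of `N` is trivial or everything
  have hinvt : ∀ M : Subgroup G, M ≤ N → (∀ g ∈ stabilizer G α, ∀ m ∈ M, g * m * g⁻¹ ∈ M) →
      M = ⊥ ∨ M = N := by
    intro M hMN hM
    by_cases h : M ≤ stabilizer G α
    · left
      rw [Subgroup.eq_bot_iff_forall]
      intro m hm
      exact hreg m (hMN hm) (h hm)
    · right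
      apply le_antisymm hMN
      intro n hn
      obtain ⟨m, hm, hmn⟩ := exists_smul_eq_of_invariant (G := G) M hM h (n • α)
      rw [← huniq m (hMN hm) n hn hmn]
      exact hm
  -- odd order
  have hodd : Odd (Nat.card (stabilizer G α)) := by
    rw [← Nat.not_even_iff_odd, even_iff_two_dvd]
    intro h2
    obtain ⟨a, ha⟩ := exists_prime_orderOf_dvd_card' 2 h2
    have h1 : a.1 * a.1 = 1 := by
      have h3 := pow_orderOf_eq_one a
      rw [ha, pow_two] at h3
      exact congrArg Subtype.val h3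
    have h4 := eq_one_of_sq_eq_one hep N hN0 hmin hna hreg a.2 h1
    have h5 : a = 1 := Subtype.ext h4
    rw [h5, orderOf_one] at ha
    omega
  have hsol := hFT _ hodd
  -- the stabilizer is not trivial
  have hne : stabilizer G α ≠ ⊥ := by
    intro hbot
    apply hna
    intro x hx y hy
    by_cases hx1 : x = 1
    · rw [hx1]; exact Commute.one_left y
    rcases hinvt (Subgroup.zpowers x) (Subgroup.zpowers_le.2 hx) (by
      intro g hg m hm
      rw [hbot, Subgroup.mem_bot] at hg
      rw [hg]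
      simpa using hm) with h | h
    · rw [Subgroup.zpowers_eq_bot] at h
      exact absurd h hx1
    · rw [← h] at hy
      obtain ⟨k, hk⟩ := Subgroup.mem_zpowers_iff.1 hy
      rw [← hk]
      exact (Commute.refl x).zpow_right k
  -- a normal `r`-subgroup of the stabilizer
  have hnt : Nontrivial (stabilizer G α) := (Subgroup.nontrivial_iff_ne_bot _).2 hne
  obtain ⟨R, hRn, hR0, hRmin⟩ := exists_min_normal (G := stabilizer G α)
  obtain ⟨hRc, r, hr, hRr⟩ := Cfsg.Agent.S0043.result R hR0 hRmin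
  have hrf : Fact r.Prime := ⟨hr⟩
  let R' : Subgroup G := R.map (stabilizer G α).subtype
  have hR'le : R' ≤ stabilizer G α := by
    rintro _ ⟨x, hx, rfl⟩
    exact x.2
  have hR'n : ∀ g ∈ stabilizer G α, ∀ m ∈ R', g * m * g⁻¹ ∈ R' := by
    rintro g hg _ ⟨m, hm, rfl⟩
    exact ⟨⟨g, hg⟩ * m * ⟨g, hg⟩⁻¹, hRn.conj_mem m hm _, rfl⟩
  have hR'0 : ∃ m ∈ R', m ≠ 1 := by
    by_contra hcon
    push Not at hcon
    apply hR0
    rw [Subgroup.eq_bot_iff_forall]
    intro x hx
    exact Subtype.ext (hcon x.1 ⟨x, hx, rfl⟩)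
  have hR'p : IsPGroup r R' := by
    rintro ⟨_, x, hx, rfl⟩
    refine ⟨1, Subtype.ext ?_⟩
    rw [pow_one]
    have h1 := congrArg Subtype.val (hRr x hx)
    exact h1
  -- centralizer of `R'` in `N`
  have hCN : ∀ n ∈ N, (∀ m ∈ R', m * n = n * m) → n = 1 := by
    rcases hinvt (N ⊓ Subgroup.centralizer (R' : Set G)) inf_le_left (by
      rintro g hg n hn
      obtain ⟨hn1, hn2⟩ := Subgroup.mem_inf.1 hn
      refine Subgroup.mem_inf.2 ⟨hN.conj_mem n hn1 g, ?_⟩
      rw [Subgroup.mem_centralizer_iff]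
      intro m hm
      have hg' : g⁻¹ ∈ stabilizer G α := (stabilizer G α).inv_mem hg
      have h1 := Subgroup.mem_centralizer_iff.1 hn2 _ (hR'n g⁻¹ hg' m hm)
      have h2 : m * (g * n * g⁻¹) = g * (g⁻¹ * m * g⁻¹⁻¹ * n) * g⁻¹ := by group
      have h3 : g * n * g⁻¹ * m = g * (n * (g⁻¹ * m * g⁻¹⁻¹)) * g⁻¹ := by group
      rw [h2, h3, h1]) with h | h
    · intro n hn hc
      have h1 : n ∈ N ⊓ Subgroup.centralizer (R' : Set G) := by
        refine Subgroup.mem_inf.2 ⟨hn, ?_⟩
        rw [Subgroup.mem_centralizer_iff]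
        exact hc
      rw [h, Subgroup.mem_bot] at h1
      exact h1
    · exfalso
      obtain ⟨m, hm, hm1⟩ := hR'0
      apply hm1
      apply eq_one_of_commute N htr (m := m) _ (mem_stabilizer_iff.1 (hR'le hm))
      intro n hn
      rw [← h] at hn
      exact Subgroup.mem_centralizer_iff.1 (Subgroup.mem_inf.1 hn).2 m hm
  -- `r` does not divide the order of `N`
  have hcardN : Nat.card N = Nat.card Ω := by
    apply Nat.card_congr
    refine Equiv.ofBijective (fun n : N => n.1 • α) ⟨fun x y h => ?_, fun ω => ?_⟩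
    · exact Subtype.ext (huniq _ x.2 _ y.2 h)
    · obtain ⟨n, hn, h⟩ := htr ω
      exact ⟨⟨n, hn⟩, h⟩
  have hrN : ¬ r ∣ Nat.card N := by
    intro hdvd
    have h1 := hR'p.card_modEq_card_fixedPoints Ω
    have h2 : Nat.card (fixedPoints R' Ω) = 1 := by
      rw [Nat.card_eq_one_iff_unique]
      refine ⟨⟨?_⟩, ⟨α, fun m => hR'le m.2⟩⟩
      have key : ∀ p : fixedPoints R' Ω, p.1 = α := by
        rintro ⟨p, hp⟩
        obtain ⟨n, hn, rfl⟩ := htr p
        have h3 : n = 1 := by
          apply hCN n hn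
          intro m hm
          have h4 : m • n • α = n • α := hp ⟨m, hm⟩
          have h5 : m⁻¹ • α = α := by
            rw [inv_smul_eq_iff]; exact (mem_stabilizer_iff.1 (hR'le hm)).symm
          have h6 : (m * n * m⁻¹) • α = n • α := by
            rw [mul_smul, mul_smul, h5, h4]
          have h7 := huniq _ (hN.conj_mem n hn m) n hn h6
          exact mul_inv_eq_iff_eq_mul.1 h7
        change n • α = α
        rw [h3, one_smul]
      intro p q
      exact Subtype.ext ((key p).trans (key q).symm)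
    rw [h2, ← hcardN] at h1
    have h3 : 1 % r = 0 := by
      rw [← h1]
      exact Nat.mod_eq_zero_of_dvd hdvd
    rw [Nat.mod_eq_of_lt hr.one_lt] at h3
    omega
  -- coprime action
  have hcop : (Nat.card R').Coprime (Nat.card N) := by
    obtain ⟨k, hk⟩ := hR'p.exists_card_eq
    rw [hk]
    exact Nat.Coprime.pow_left k ((Nat.Prime.coprime_iff_not_dvd hr).2 hrN)
  have hR'N : R' ≤ Subgroup.normalizer (N : Set G) := by
    rw [Subgroup.normalizer_eq_top]
    exact le_top
  have hR'sol : Group.IsSolvable R' := by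
    have : Group.IsNilpotent R' := hR'p.isNilpotent
    infer_instance
  have hN1 : Nat.card N ≠ 1 := by
    intro h
    exact hN0 (Subgroup.card_eq_one.1 h)
  obtain ⟨p, hp, hpN⟩ := Nat.exists_prime_and_dvd hN1
  have hpf : Fact p.Prime := ⟨hp⟩
  obtain ⟨P, hP⟩ := Cfsg.Agent.S0023.result R' N hR'N hcop (Or.inl hR'sol) p
  -- it is invariant under the stabilizer
  have hmem : ∀ x : G, x ∈ (P : Subgroup N).map N.subtype ↔ ∃ h : x ∈ N, (⟨x, h⟩ : N) ∈ P := by
    intro x
    constructor
    · rintro ⟨y, hy, rfl⟩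
      exact ⟨y.2, hy⟩
    · rintro ⟨h, hx⟩
      exact ⟨⟨x, h⟩, hx, rfl⟩
  have hPinv : ∀ g ∈ stabilizer G α, ∀ x ∈ (P : Subgroup N).map N.subtype,
      g * x * g⁻¹ ∈ (P : Subgroup N).map N.subtype := by
    intro g hg x hx
    let P' : Sylow p N := (MulAut.conjNormal g : MulAut N) • P
    have hmem' : ∀ x : G, x ∈ (P' : Subgroup N).map N.subtype ↔
        g⁻¹ * x * g ∈ (P : Subgroup N).map N.subtype := by
      intro x
      have hxN : x ∈ N ↔ g⁻¹ * x * g ∈ N := by
        constructor
        · intro h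
          have := hN.conj_mem x h g⁻¹
          rwa [inv_inv] at this
        · intro h
          have := hN.conj_mem _ h g
          have h2 : g * (g⁻¹ * x * g) * g⁻¹ = x := by group
          rwa [h2] at this
      constructor
      · rintro ⟨y, hy, rfl⟩
        have hy' : y ∈ ((MulAut.conjNormal g : MulAut N) • (P : Subgroup N) : Subgroup N) := hy
        rw [Subgroup.mem_pointwise_smul_iff_inv_smul_mem] at hy'
        refine (hmem _).2 ⟨hxN.1 y.2, ?_⟩
        have h3 : ((MulAut.conjNormal g : MulAut N)⁻¹ • y : N) = ⟨g⁻¹ * y.1 * g, hxN.1 y.2⟩ := by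
          apply Subtype.ext
          rw [← map_inv]
          change ((MulAut.conjNormal g⁻¹ y : N) : G) = _
          rw [MulAut.conjNormal_apply, inv_inv]
        rw [h3] at hy'
        exact hy'
      · intro h
        obtain ⟨h1, h2⟩ := (hmem _).1 h
        refine ⟨⟨x, hxN.2 h1⟩, ?_, rfl⟩
        change _ ∈ ((MulAut.conjNormal g : MulAut N) • (P : Subgroup N) : Subgroup N)
        rw [Subgroup.mem_pointwise_smul_iff_inv_smul_mem]
        have h3 : ((MulAut.conjNormal g : MulAut N)⁻¹ • (⟨x, hxN.2 h1⟩ : N) : N) =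
            ⟨g⁻¹ * x * g, h1⟩ := by
          apply Subtype.ext
          rw [← map_inv]
          change ((MulAut.conjNormal g⁻¹ (⟨x, hxN.2 h1⟩ : N) : N) : G) = _
          rw [MulAut.conjNormal_apply, inv_inv]
        rw [h3]
        exact h2
    have hP' : R' ≤ Subgroup.normalizer ((P' : Subgroup N).map N.subtype : Set G) := by
      intro m hm
      rw [Subgroup.mem_normalizer_iff]
      intro x
      have hm' : g⁻¹ * m * g ∈ R' := by
        have := hR'n g⁻¹ ((stabilizer G α).inv_mem hg) m hm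
        rwa [inv_inv] at this
      have h1 := (Subgroup.mem_normalizer_iff.1 (hP hm')) (g⁻¹ * x * g)
      rw [hmem', hmem', h1]
      have h2 : g⁻¹ * m * g * (g⁻¹ * x * g) * (g⁻¹ * m * g)⁻¹ = g⁻¹ * (m * x * m⁻¹) * g := by
        group
      rw [h2]
    obtain ⟨c, hc, hcP⟩ := Cfsg.Agent.S0024.result R' N hR'N hcop (Or.inl hR'sol) p P P' hP hP'
    have hc1 : (c : G) = 1 := hCN c c.2 (fun m hm => Subgroup.mem_centralizer_iff.1 hc m hm)
    have hc2 : c = 1 := Subtype.ext hc1
    rw [hc2, map_one, one_smul] at hcP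
    rw [hcP, hmem']
    have h2 : g⁻¹ * (g * x * g⁻¹) * g = x := by group
    rw [h2]
    exact hx
  obtain ⟨T, hT⟩ := exists_factor N hmin hna
  rcases hinvt _ (by
    rintro _ ⟨x, _, rfl⟩
    exact x.2) hPinv with h | h
  · have hPb : (P : Subgroup N) = ⊥ := by
      rw [Subgroup.eq_bot_iff_forall]
      intro x hx
      have h1 : x.1 ∈ (P : Subgroup N).map N.subtype := ⟨x, hx, rfl⟩
      rw [h, Subgroup.mem_bot] at h1
      exact Subtype.ext h1
    exact P.ne_bot_of_dvd_card hpN hPb
  · have hNp : IsPGroup p N := by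
      have hPt : (P : Subgroup N) = ⊤ := by
        rw [Subgroup.eq_top_iff']
        intro x
        have h1 : x.1 ∈ (P : Subgroup N).map N.subtype := by rw [h]; exact x.2
        obtain ⟨_, h2⟩ := (hmem _).1 h1
        exact h2
      intro x
      obtain ⟨k, hk⟩ := P.2 ⟨x, by rw [show P.toSubgroup = ⊤ from hPt]; exact Subgroup.mem_top x⟩
      refine ⟨k, ?_⟩
      exact congrArg Subtype.val hk
    have hNnt : Nontrivial N := (Subgroup.nontrivial_iff_ne_bot _).2 hN0
    have hZ := hNp.center_nontrivial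
    have hZb := eq_bot_of_abelian (K := (Subgroup.center N).map N.subtype) hmin hna hT (by
      rintro _ ⟨x, _, rfl⟩
      exact x.2) (by
      rintro n hn _ ⟨x, hx, rfl⟩
      refine ⟨x, hx, ?_⟩
      have h1 := Subgroup.mem_center_iff.1 hx ⟨n, hn⟩
      have h2 : n * x.1 = x.1 * n := congrArg Subtype.val h1
      change x.1 = n * x.1 * n⁻¹
      rw [h2, mul_inv_cancel_right]) (by
      rintro _ ⟨x, hx, rfl⟩ _ ⟨y, _, rfl⟩
      exact (congrArg Subtype.val (Subgroup.mem_center_iff.1 hx y)).symm)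
    obtain ⟨z, hz1⟩ := exists_ne (1 : Subgroup.center N)
    apply hz1
    have h1 : z.1.1 ∈ (Subgroup.center N).map N.subtype := ⟨z.1, z.2, rfl⟩
    rw [hZb, Subgroup.mem_bot] at h1
    exact Subtype.ext (Subtype.ext h1)

/-- In an extremely primitive group a non-abelian minimal normal subgroup is simple. -/
theorem false_of_factor
    (hFT : ∀ (H : Subgroup G), Odd (Nat.card H) → Group.IsSolvable H) {α : Ω}
    (hep : ∀ ω : Ω, IsPreprimitive (stabilizer G α) (orbit (stabilizer G α) ω))
    (N : Subgroup G) [hN : N.Normal] (hN0 : N ≠ ⊥)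
    (hmin : ∀ M : Subgroup G, M.Normal → M ≤ N → M = ⊥ ∨ M = N)
    (hna : ¬ ∀ x ∈ N, ∀ y ∈ N, Commute x y) (T : Subgroup G) (hT : IsFactor N T)
    (hTn : ¬ T.Normal) : False := by
  classical
  have htr : ∀ ω : Ω, ∃ n ∈ N, n • α = ω := fun ω => exists_smul_eq_of_normal N hN0 α ω
  have hfixinv : ∀ g ∈ stabilizer G α, g⁻¹ • α = α := fun g hg => by
    rw [inv_smul_eq_iff]; exact (mem_stabilizer_iff.1 hg).symm
  have hact : ∀ g ∈ stabilizer G α, ∀ n : G, g • n • α = (g * n * g⁻¹) • α := by
    intro g hg n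
    rw [mul_smul, mul_smul, hfixinv g hg]
  -- an element of the stabilizer moving `T`
  obtain ⟨g₀, hg₀, hg₀T⟩ : ∃ g ∈ stabilizer G α, ¬ ∀ t ∈ T, g * t * g⁻¹ ∈ T := by
    by_contra hcon
    push Not at hcon
    exact hTn (normal_of_invariant N T htr hcon hT.norm)
  have hg₀c := (hT.conj g₀).resolve_left hg₀T
  -- conjugates of `T` are conjugates under the stabilizer
  have hconjT : ∀ g : G, ∃ h ∈ stabilizer G α, ∀ t ∈ T, ∃ t' ∈ T, g * t * g⁻¹ = h * t' * h⁻¹ := by
    intro g
    obtain ⟨n, hn, hng⟩ := htr (g • α)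
    have h1 : n⁻¹ * g ∈ stabilizer G α := by
      rw [mem_stabilizer_iff, mul_smul, ← hng, inv_smul_smul]
    refine ⟨n⁻¹ * g, h1, fun t ht => ?_⟩
    -- `g t g⁻¹ = n (h t h⁻¹) n⁻¹ = h ((h⁻¹ n h) t (h⁻¹ n h)⁻¹) h⁻¹`
    have h2 := hN.conj_mem n hn (n⁻¹ * g)⁻¹
    refine ⟨_, hT.norm _ h2 t ht, ?_⟩
    group
  have hTα : ¬ T ≤ stabilizer G α := by
    intro h
    have h1 : N ≤ stabilizer G α := hT.gen _ (fun g t ht => by
      obtain ⟨k, hk, hkT⟩ := hconjT g
      obtain ⟨t', ht', h2⟩ := hkT t ht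
      rw [h2]
      exact (stabilizer G α).mul_mem ((stabilizer G α).mul_mem hk (h ht'))
        ((stabilizer G α).inv_mem hk))
    obtain ⟨ω, hω⟩ := exists_ne α
    obtain ⟨n, hn, rfl⟩ := htr ω
    exact hω (h1 hn)
  by_cases hB1 : ∃ g ∈ stabilizer G α, (∀ s ∈ T, ∀ t ∈ T, s * (g * t * g⁻¹) = (g * t * g⁻¹) * s) ∧
      ∃ t ∈ T, ∃ s ∈ T, t • α = (g * s * g⁻¹) • α ∧ t • α ≠ α
  · -- diagonal type
    obtain ⟨g₁, hg₁, hg₁c, t₁, ht₁, s₁, hs₁, hts, htα⟩ := hB1
    have hs₁N : g₁ * s₁ * g₁⁻¹ ∈ N := hN.conj_mem _ (hT.le hs₁) _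
    -- the projection of the stabilizer
    let P : Subgroup G :=
      { carrier := {x | x ∈ T ∧ ∃ c ∈ N, (∀ t ∈ T, c * t = t * c) ∧ (x * c) • α = α}
        one_mem' := ⟨T.one_mem, 1, N.one_mem, fun t _ => by simp, by simp⟩
        mul_mem' := by
          rintro x y ⟨hx, c, hc, hcT, hxc⟩ ⟨hy, d, hd, hdT, hyd⟩
          refine ⟨T.mul_mem hx hy, c * d, N.mul_mem hc hd, fun t ht => ?_, ?_⟩
          · rw [mul_assoc, hdT t ht, ← mul_assoc, hcT t ht, mul_assoc]
          · have h1 : x * y * (c * d) = (x * c) * (y * d) := by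
              have h2 := hcT y hy
              rw [mul_assoc x c, ← mul_assoc c y, h2]
              group
            rw [h1, mul_smul, hyd, hxc]
        inv_mem' := by
          rintro x ⟨hx, c, hc, hcT, hxc⟩
          refine ⟨T.inv_mem hx, c⁻¹, N.inv_mem hc, fun t ht => ?_, ?_⟩
          · have h2 := hcT t ht
            rw [inv_mul_eq_iff_eq_mul, ← mul_assoc, h2, mul_inv_cancel_right]
          · have h1 : x⁻¹ * c⁻¹ = (x * c)⁻¹ := by
              rw [mul_inv_rev]
              have h2 : Commute c x⁻¹ := hcT x⁻¹ (T.inv_mem hx)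
              exact h2.inv_left.eq.symm
            rw [h1, inv_smul_eq_iff, hxc] }
    have hPdef : ∀ x, x ∈ P ↔ x ∈ T ∧ ∃ c ∈ N, (∀ t ∈ T, c * t = t * c) ∧ (x * c) • α = α :=
      fun x => Iff.rfl
    have ht₁P : t₁ ∈ P := by
      rw [← inv_inv t₁]
      apply P.inv_mem
      refine ⟨T.inv_mem ht₁, g₁ * s₁ * g₁⁻¹, hs₁N, fun t ht => (hg₁c t ht s₁ hs₁).symm, ?_⟩
      rw [mul_smul, ← hts, inv_smul_smul]
    -- the product of `P` and the centralizer of `T`
    let PP : Subgroup G :=
      { carrier := {n | ∃ x ∈ P, ∃ c ∈ N, (∀ t ∈ T, c * t = t * c) ∧ n = x * c}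
        one_mem' := ⟨1, P.one_mem, 1, N.one_mem, fun t _ => by simp, by simp⟩
        mul_mem' := by
          rintro _ _ ⟨x, hx, c, hc, hcT, rfl⟩ ⟨y, hy, d, hd, hdT, rfl⟩
          refine ⟨x * y, P.mul_mem hx hy, c * d, N.mul_mem hc hd, fun t ht => ?_, ?_⟩
          · rw [mul_assoc, hdT t ht, ← mul_assoc, hcT t ht, mul_assoc]
          · have h2 := hcT y hy.1
            rw [mul_assoc x c, ← mul_assoc c y, h2]
            group
        inv_mem' := by
          rintro _ ⟨x, hx, c, hc, hcT, rfl⟩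
          refine ⟨x⁻¹, P.inv_mem hx, c⁻¹, N.inv_mem hc, fun t ht => ?_, ?_⟩
          · have h2 := hcT t ht
            rw [inv_mul_eq_iff_eq_mul, ← mul_assoc, h2, mul_inv_cancel_right]
          · rw [mul_inv_rev]
            have h2 : Commute c x⁻¹ := hcT x⁻¹ (T.inv_mem hx.1)
            exact h2.inv_left.eq }
    have hPPdef : ∀ n, n ∈ PP ↔ ∃ x ∈ P, ∃ c ∈ N, (∀ t ∈ T, c * t = t * c) ∧ n = x * c :=
      fun n => Iff.rfl
    have hNαPP : ∀ n ∈ N, n • α = α → n ∈ PP := by
      intro n hn hnα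
      obtain ⟨x, hx, c, hc, hcT, rfl⟩ := hT.split n hn
      exact ⟨x, ⟨hx, c, hc, hcT, hnα⟩, c, hc, hcT, rfl⟩
    have hPconj : ∀ g ∈ stabilizer G α, ∀ x ∈ P, g * x * g⁻¹ ∈ PP := by
      rintro g hg x ⟨hx, c, hc, hcT, hxc⟩
      rcases hT.conj g with h | h
      · refine ⟨g * x * g⁻¹, ⟨h x hx, g * c * g⁻¹, hN.conj_mem c hc g, fun t ht => ?_, ?_⟩, 1,
          N.one_mem, fun t _ => by simp, by simp⟩
        · -- `T = g T g⁻¹`
          have hTT : ∃ t' ∈ T, t = g * t' * g⁻¹ := by
            have hle : T.map (MulAut.conj g).toMonoidHom ≤ T := by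
              rintro _ ⟨y, hy, rfl⟩
              exact h y hy
            have hEq : T.map (MulAut.conj g).toMonoidHom = T := by
              apply Subgroup.eq_of_le_of_card_ge hle
              rw [Subgroup.card_map_of_injective (MulAut.conj g).injective]
            have ht' : t ∈ T.map (MulAut.conj g).toMonoidHom := by rw [hEq]; exact ht
            obtain ⟨t', ht', rfl⟩ := ht'
            exact ⟨t', ht', rfl⟩
          obtain ⟨t', ht', rfl⟩ := hTT
          have h1 : g * c * g⁻¹ * (g * t' * g⁻¹) = g * (c * t') * g⁻¹ := by group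
          have h2 : g * t' * g⁻¹ * (g * c * g⁻¹) = g * (t' * c) * g⁻¹ := by group
          rw [h1, h2, hcT t' ht']
        · have h1 : g * x * g⁻¹ * (g * c * g⁻¹) = g * (x * c) * g⁻¹ := by group
          rw [h1, mul_smul, mul_smul, hfixinv g hg, hxc, mem_stabilizer_iff.1 hg]
      · exact ⟨1, P.one_mem, g * x * g⁻¹, hN.conj_mem x (hT.le hx) g,
          fun t ht => (h t ht x hx).symm, by simp⟩
    -- the invariant subgroup
    have hPT : ∀ x ∈ T, x ∈ P := by
      let M : Subgroup G :=
        { carrier := {n | n ∈ N ∧ ∀ g ∈ stabilizer G α, g * n * g⁻¹ ∈ PP}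
          one_mem' := ⟨N.one_mem, fun g _ => by simp [PP.one_mem]⟩
          mul_mem' := by
            rintro a b ⟨ha, ha'⟩ ⟨hb, hb'⟩
            refine ⟨N.mul_mem ha hb, fun g hg => ?_⟩
            have h1 : g * (a * b) * g⁻¹ = (g * a * g⁻¹) * (g * b * g⁻¹) := by group
            rw [h1]
            exact PP.mul_mem (ha' g hg) (hb' g hg)
          inv_mem' := by
            rintro a ⟨ha, ha'⟩
            refine ⟨N.inv_mem ha, fun g hg => ?_⟩
            have h1 : g * a⁻¹ * g⁻¹ = (g * a * g⁻¹)⁻¹ := by group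
            rw [h1]
            exact PP.inv_mem (ha' g hg) }
      have hMdef : ∀ n, n ∈ M ↔ n ∈ N ∧ ∀ g ∈ stabilizer G α, g * n * g⁻¹ ∈ PP := fun n => Iff.rfl
      have hMinv : ∀ g ∈ stabilizer G α, ∀ m ∈ M, g * m * g⁻¹ ∈ M := by
        rintro g hg m ⟨hm, hm'⟩
        refine ⟨hN.conj_mem m hm g, fun h hh => ?_⟩
        have h1 : h * (g * m * g⁻¹) * h⁻¹ = (h * g) * m * (h * g)⁻¹ := by group
        rw [h1]
        exact hm' _ ((stabilizer G α).mul_mem hh hg)
      have ht₁M : t₁ ∈ M := ⟨hT.le ht₁, fun g hg => hPconj g hg t₁ ht₁P⟩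
      have hMn : ¬ M ≤ stabilizer G α := fun h => htα (h ht₁M)
      have hNαM : ∀ n ∈ N, n • α = α → n ∈ M := by
        intro n hn hnα
        refine ⟨hn, fun g hg => hNαPP _ (hN.conj_mem n hn g) ?_⟩
        rw [mul_smul, mul_smul, hfixinv g hg, hnα, mem_stabilizer_iff.1 hg]
      intro x hx
      obtain ⟨m, hm, hmx⟩ := exists_smul_eq_of_invariant (G := G) M hMinv hMn (x • α)
      have h1 : m⁻¹ * x ∈ M := hNαM _ (N.mul_mem (N.inv_mem hm.1) (hT.le hx)) (by
        rw [mul_smul, ← hmx, inv_smul_smul])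
      have h2 : x ∈ M := by
        have := M.mul_mem hm h1
        rwa [mul_inv_cancel_left] at this
      obtain ⟨y, hy, c, hc, hcT, h3⟩ := (by simpa using h2.2 1 (stabilizer G α).one_mem : x ∈ PP)
      have h4 : c = 1 := by
        apply hT.centerless c _ hcT
        have h5 : c = y⁻¹ * x := by rw [h3, inv_mul_cancel_left]
        rw [h5]
        exact T.mul_mem (T.inv_mem hy.1) hx
      rw [h3, h4, mul_one]
      exact hy
    -- for every `x ∈ T` an element of the stabilizer acting on `T` like `x`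
    have hlift : ∀ x ∈ T, ∃ n ∈ N, n • α = α ∧ ∀ t ∈ T, n * t * n⁻¹ = x * t * x⁻¹ := by
      intro x hx
      obtain ⟨-, c, hc, hcT, hxc⟩ := hPT x hx
      refine ⟨x * c, N.mul_mem (hT.le hx) hc, hxc, fun t ht => ?_⟩
      have h1 : x * c * t * (x * c)⁻¹ = x * (c * t) * c⁻¹ * x⁻¹ := by group
      rw [h1, hcT t ht]
      group
    -- `T` is semiregular at `α`
    have hTreg : ∀ t ∈ T, t • α = α → t = 1 := by
      rcases hT.simple (T ⊓ stabilizer G α) inf_le_left (by
        rintro x hx s hs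
        obtain ⟨hs1, hs2⟩ := Subgroup.mem_inf.1 hs
        obtain ⟨n, hn, hnα, hnx⟩ := hlift x hx
        refine Subgroup.mem_inf.2 ⟨T.mul_mem (T.mul_mem hx hs1) (T.inv_mem hx), ?_⟩
        rw [← hnx s hs1]
        have hn' : n ∈ stabilizer G α := hnα
        exact (stabilizer G α).mul_mem ((stabilizer G α).mul_mem hn' hs2)
          ((stabilizer G α).inv_mem hn')) with h | h
      · intro t ht htα
        have h1 : t ∈ T ⊓ stabilizer G α := Subgroup.mem_inf.2 ⟨ht, htα⟩
        rwa [h, Subgroup.mem_bot] at h1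
      · exfalso
        apply hTα
        rw [← h]
        exact inf_le_right
    have huniq : ∀ x ∈ T, ∀ y ∈ T, x • α = y • α → x = y := by
      intro x hx y hy h
      have h1 := hTreg (y⁻¹ * x) (T.mul_mem (T.inv_mem hy) hx) (by
        rw [mul_smul, h, inv_smul_smul])
      exact (inv_mul_eq_one.1 h1).symm
    -- `T` is transitive
    have hTtr : ∀ ω : Ω, ∃ t ∈ T, t • α = ω := by
      have hS := set_eq_univ (G := G) (α := α) (S := {x | ∃ t ∈ T, t • α = x})
        ⟨α, 1, T.one_mem, one_smul _ _⟩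
        (by
          rintro g hg _ ⟨t, ht, rfl⟩
          by_cases ht1 : t = 1
          · refine ⟨1, T.one_mem, ?_⟩
            rw [ht1, one_smul, mem_stabilizer_iff.1 hg]
          -- an element not commuting with `t`
          obtain ⟨x, hx, hxt⟩ : ∃ x ∈ T, t * x ≠ x * t := by
            by_contra hcon
            push Not at hcon
            exact ht1 (hT.centerless t ht hcon)
          obtain ⟨n, hn, hnα, hnx⟩ := hlift x hx
          have hmove : n • t • α ≠ t • α := by
            intro h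
            rw [hact n hnα, hnx t ht] at h
            have h1 := huniq _ (T.mul_mem (T.mul_mem hx ht) (T.inv_mem hx)) _ ht h
            exact hxt (mul_inv_eq_iff_eq_mul.1 h1).symm
          obtain ⟨k, hk, hkt⟩ := transitive_on_orbit (hep (t • α)) (N ⊓ stabilizer G α)
            inf_le_right (by
              intro h hh k hk
              obtain ⟨hk1, hk2⟩ := Subgroup.mem_inf.1 hk
              exact Subgroup.mem_inf.2 ⟨hN.conj_mem k hk1 h, (stabilizer G α).mul_mem
                ((stabilizer G α).mul_mem hh hk2) ((stabilizer G α).inv_mem hh)⟩)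
            (Subgroup.mem_inf.2 ⟨hn, hnα⟩) hmove (g • t • α) ⟨⟨g, hg⟩, rfl⟩
          obtain ⟨hk1, hk2⟩ := Subgroup.mem_inf.1 hk
          rw [hact k hk2] at hkt
          exact ⟨_, hT.norm k hk1 t ht, hkt⟩) T
        (by
          rintro g hg _ ⟨t, ht, rfl⟩
          exact ⟨g * t, T.mul_mem hg ht, mul_smul _ _ _⟩) hTα
      intro ω
      have h2 : ω ∈ {x | ∃ t ∈ T, t • α = x} := hS ▸ Set.mem_univ ω
      exact h2
    -- equivariance of inversion
    have hequi : ∀ g ∈ stabilizer G α, ∀ x ∈ T, ∀ y ∈ T, g • x • α = y • α →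
        g • x⁻¹ • α = y⁻¹ • α := by
      intro g hg x hx y hy h
      rw [hact g hg] at h ⊢
      rcases hT.conj g with hgT | hgT
      · have h1 := huniq _ (hgT x hx) y hy h
        rw [← h1]
        congr 1
        group
      · -- `y⁻¹ (g x g⁻¹)` fixes `α`, and the factors commute
        have h1 : (y⁻¹ * (g * x * g⁻¹)) • α = α := by rw [mul_smul, h, inv_smul_smul]
        have h2 : (y * (g * x⁻¹ * g⁻¹)) • α = α := by
          have h3 : y * (g * x⁻¹ * g⁻¹) = (y⁻¹ * (g * x * g⁻¹))⁻¹ := by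
            have h4 := hgT y hy x⁻¹ (T.inv_mem hx)
            rw [h4]
            group
          rw [h3, inv_smul_eq_iff, h1]
        rw [mul_smul, ← eq_inv_smul_iff] at h2
        exact h2
    -- involutions of `T` commute
    have hinvol : ∀ u ∈ T, u * u = 1 → ∀ w ∈ T, w * w = 1 → u * w = w * u := by
      intro u hu hu2 v hv hv2
      have hui : u⁻¹ = u := inv_eq_of_mul_eq_one_left hu2
      have hvi : v⁻¹ = v := inv_eq_of_mul_eq_one_left hv2
      have hw : u * v ∈ T := T.mul_mem hu hv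
      by_cases hw2 : (u * v) * (u * v) = 1
      · have h1 : (u * v)⁻¹ = u * v := inv_eq_of_mul_eq_one_left hw2
        rw [mul_inv_rev, hui, hvi] at h1
        exact h1.symm
      · exfalso
        obtain ⟨a, ha, haα, hau⟩ := hlift u hu
        have hau' : a • (u * v) • α = (u * v)⁻¹ • α := by
          rw [hact a haα, hau _ hw]
          congr 1
          rw [mul_inv_rev, hui, hvi]
          have : u * (u * v) * u = (u * u) * (v * u) := by group
          rw [this, hu2, one_mul]
        have hpair : ∀ x ∈ T, x * (u * v) * x⁻¹ = u * v ∨ x * (u * v) * x⁻¹ = (u * v)⁻¹ := by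
          intro x hx
          obtain ⟨n, hn, hnα, hnx⟩ := hlift x hx
          have hxT : x * (u * v) * x⁻¹ ∈ T := T.mul_mem (T.mul_mem hx hw) (T.inv_mem hx)
          rcases inverse_pair (G := G) hep T hTtr hTreg hequi haα hw hau' hw2
              (g := n) hnα with h | h
          · left
            rw [hact n hnα, hnx _ hw] at h
            exact huniq _ hxT _ hw h
          · right
            rw [hact n hnα, hnx _ hw] at h
            exact huniq _ hxT _ (T.inv_mem hw) h
        rcases hT.simple (Subgroup.zpowers (u * v)) (Subgroup.zpowers_le.2 hw) (by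
          rintro x hx _ ⟨k, rfl⟩
          simp only
          rw [← conj_zpow]
          rcases hpair x hx with h | h
          · rw [h]
            exact Subgroup.zpow_mem _ (Subgroup.mem_zpowers _) _
          · rw [h]
            exact Subgroup.zpow_mem _ (Subgroup.inv_mem _ (Subgroup.mem_zpowers _)) _) with h | h
        · rw [Subgroup.zpowers_eq_bot] at h
          rw [h, mul_one] at hw2
          exact hw2 rfl
        · apply hT.ne_bot
          rw [Subgroup.eq_bot_iff_forall]
          intro z hz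
          apply hT.centerless z hz
          intro t ht
          rw [← h] at hz ht
          obtain ⟨i, rfl⟩ := Subgroup.mem_zpowers_iff.1 hz
          obtain ⟨j, rfl⟩ := Subgroup.mem_zpowers_iff.1 ht
          exact ((Commute.refl (u * v)).zpow_zpow i j).eq
    -- hence `T` has no involutions
    have hno : ∀ u ∈ T, u * u = 1 → u = 1 := by
      intro u hu hu2
      let I : Subgroup G := Subgroup.closure {w | w ∈ T ∧ w * w = 1}
      have hIT : I ≤ T := by
        rw [Subgroup.closure_le]
        rintro w ⟨hw, -⟩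
        exact hw
      have hIab : ∀ x ∈ I, ∀ y ∈ I, x * y = y * x := by
        have h1 : ∀ w ∈ T, w * w = 1 → ∀ x ∈ I, x * w = w * x := by
          intro w hw hw2 x hx
          have : I ≤ Subgroup.centralizer {w} := by
            rw [Subgroup.closure_le]
            rintro z ⟨hz, hz2⟩
            rw [SetLike.mem_coe, Subgroup.mem_centralizer_singleton_iff]
            exact hinvol z hz hz2 w hw hw2
          have h2 := this hx
          rwa [Subgroup.mem_centralizer_singleton_iff] at h2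
        intro x hx y hy
        have : I ≤ Subgroup.centralizer {x} := by
          rw [Subgroup.closure_le]
          rintro z ⟨hz, hz2⟩
          rw [SetLike.mem_coe, Subgroup.mem_centralizer_singleton_iff]
          exact (h1 z hz hz2 x hx).symm
        have h2 := this hy
        rw [Subgroup.mem_centralizer_singleton_iff] at h2
        exact h2.symm
      rcases hT.simple I hIT (by
        intro t ht x hx
        induction hx using Subgroup.closure_induction with
        | mem w hw =>
          apply Subgroup.subset_closure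
          refine ⟨T.mul_mem (T.mul_mem ht hw.1) (T.inv_mem ht), ?_⟩
          have : t * w * t⁻¹ * (t * w * t⁻¹) = t * (w * w) * t⁻¹ := by group
          rw [this, hw.2]
          group
        | one => simp
        | mul x y _ _ hx hy =>
          have : t * (x * y) * t⁻¹ = (t * x * t⁻¹) * (t * y * t⁻¹) := by group
          rw [this]
          exact I.mul_mem hx hy
        | inv x _ hx =>
          have : t * x⁻¹ * t⁻¹ = (t * x * t⁻¹)⁻¹ := by group
          rw [this]
          exact I.inv_mem hx) with h | h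
      · have h1 : u ∈ I := Subgroup.subset_closure ⟨hu, hu2⟩
        rwa [h, Subgroup.mem_bot] at h1
      · exfalso
        apply hT.ne_bot
        rw [Subgroup.eq_bot_iff_forall]
        intro z hz
        apply hT.centerless z hz
        intro t ht
        rw [← h] at hz ht
        exact hIab z hz t ht
    have hodd : Odd (Nat.card T) := by
      rw [← Nat.not_even_iff_odd, even_iff_two_dvd]
      intro h2
      obtain ⟨a, ha⟩ := exists_prime_orderOf_dvd_card' 2 h2
      have h1 : a.1 * a.1 = 1 := by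
        have h3 := pow_orderOf_eq_one a
        rw [ha, pow_two] at h3
        exact congrArg Subtype.val h3
      have h4 := hno a.1 a.2 h1
      have h5 : a = 1 := Subtype.ext h4
      rw [h5, orderOf_one] at ha
      omega
    have hsol := hFT T hodd
    -- a solvable simple group is abelian
    have hne : commutator T ≠ ⊤ := by
      have hnt : Nontrivial T := (Subgroup.nontrivial_iff_ne_bot _).2 hT.ne_bot
      exact (Group.IsSolvable.commutator_lt_top_of_nontrivial (G := T)).ne
    rcases hT.simple ((commutator T).map T.subtype) (by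
      rintro _ ⟨x, _, rfl⟩
      exact x.2) (by
      rintro t ht _ ⟨x, hx, rfl⟩
      exact ⟨⟨t, ht⟩ * x * ⟨t, ht⟩⁻¹, (inferInstance : (commutator T).Normal).conj_mem x hx _,
        rfl⟩) with h | h
    · apply hT.ne_bot
      rw [Subgroup.eq_bot_iff_forall]
      intro z hz
      apply hT.centerless z hz
      intro t ht
      have h1 : ⁅(⟨z, hz⟩ : T), ⟨t, ht⟩⁆ ∈ commutator T :=
        Subgroup.commutator_mem_commutator (Subgroup.mem_top _) (Subgroup.mem_top _)
      have h2 : (⁅(⟨z, hz⟩ : T), ⟨t, ht⟩⁆ : T).1 ∈ (commutator T).map T.subtype := ⟨_, h1, rfl⟩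
      rw [h, Subgroup.mem_bot] at h2
      have h3 : ⁅z, t⁆ = 1 := h2
      exact commutatorElement_eq_one_iff_mul_comm.1 h3
    · apply hne
      rw [Subgroup.eq_top_iff']
      intro x
      have h1 : x.1 ∈ (commutator T).map T.subtype := by rw [h]; exact x.2
      obtain ⟨y, hy, hyx⟩ := h1
      have h2 : y = x := Subtype.ext hyx
      rw [← h2]
      exact hy
  · -- product type: `N` is regular
    push Not at hB1
    have hfix : ∀ t ∈ T, ∀ n ∈ N, n • α = α → n • t • α = t • α := by
      intro t ht n hn hnα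
      by_cases htα : t • α = α
      · rw [htα, hnα]
      let Δ := orbit (stabilizer G α) (t • α)
      have hprim : IsPreprimitive (stabilizer G α) Δ := hep (t • α)
      rcases eq_or_univ_of_invariant (G := stabilizer G α) (Ω := Δ)
        (fun p q => ∀ g ∈ stabilizer G α,
          (∃ s ∈ T, (g * s * g⁻¹) • α = p.1) ↔ (∃ s ∈ T, (g * s * g⁻¹) • α = q.1))
        ⟨fun _ _ _ => Iff.rfl, fun h g hg => (h g hg).symm,
          fun h h' g hg => (h g hg).trans (h' g hg)⟩
        (by
          intro h p q hpq g hg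
          have key : ∀ p : Δ, (∃ s ∈ T, (g * s * g⁻¹) • α = (h • p).1) ↔
              (∃ s ∈ T, ((h.1⁻¹ * g) * s * (h.1⁻¹ * g)⁻¹) • α = p.1) := by
            intro p
            have h1 : ∀ s, (g * s * g⁻¹) • α = (h • p).1 ↔
                ((h.1⁻¹ * g) * s * (h.1⁻¹ * g)⁻¹) • α = p.1 := by
              intro s
              have h2 : (h • p).1 = h.1 • p.1 := rfl
              have h3 : (h.1⁻¹ * g) * s * (h.1⁻¹ * g)⁻¹ = h.1⁻¹ * (g * s * g⁻¹) * h.1 := by group
              rw [h2, h3, mul_smul (h.1⁻¹ * (g * s * g⁻¹)) h.1 α, mem_stabilizer_iff.1 h.2,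
                mul_smul h.1⁻¹ (g * s * g⁻¹) α, inv_smul_eq_iff]
            constructor
            · rintro ⟨s, hs, h4⟩
              exact ⟨s, hs, (h1 s).1 h4⟩
            · rintro ⟨s, hs, h4⟩
              exact ⟨s, hs, (h1 s).2 h4⟩
          rw [key, key]
          exact hpq _ ((stabilizer G α).mul_mem ((stabilizer G α).inv_mem h.2) hg)) with h | h
      · have h1 := h ⟨t • α, mem_orbit_self _⟩ ⟨n • t • α, ⟨⟨n, hnα⟩, rfl⟩⟩ (by
          intro g hg
          have key : ∀ m ∈ N, m • α = α → ∀ x : Ω, (∃ s ∈ T, (g * s * g⁻¹) • α = x) →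
              (∃ s ∈ T, (g * s * g⁻¹) • α = m • x) := by
            rintro m hm hmα x ⟨s, hs, rfl⟩
            have h2 := hN.conj_mem m hm g⁻¹
            refine ⟨_, hT.norm _ h2 s hs, ?_⟩
            have h3 : g * (g⁻¹ * m * g⁻¹⁻¹ * s * (g⁻¹ * m * g⁻¹⁻¹)⁻¹) * g⁻¹ =
                m * (g * s * g⁻¹) * m⁻¹ := by group
            rw [h3, mul_smul, mul_smul, hfixinv m hmα]
          constructor
          · exact key n hn hnα _
          · intro h2
            have h3 := key n⁻¹ (N.inv_mem hn) (hfixinv n hnα) _ h2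
            simpa using h3)
        exact (congrArg Subtype.val h1).symm
      · exfalso
        have h1 := (h ⟨t • α, mem_orbit_self _⟩ ⟨g₀ • t • α, ⟨⟨g₀, hg₀⟩, rfl⟩⟩ 1
          (stabilizer G α).one_mem).1 ⟨t, ht, by simp⟩
        obtain ⟨s, hs, hsg⟩ := h1
        have hsg' : s • α = g₀ • t • α := by simpa using hsg
        rw [hact g₀ hg₀] at hsg'
        have h2 := hB1 g₀ hg₀ hg₀c s hs t ht hsg'
        have h3 : g₀ • t • α = g₀ • α := by
          rw [hact g₀ hg₀, ← hsg', h2, mem_stabilizer_iff.1 hg₀]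
        exact htα (MulAction.injective g₀ h3)
    -- `N_α` is normalized by `T`
    have hNT : ∀ t ∈ T, ∀ n ∈ N ⊓ stabilizer G α, t⁻¹ * n * t ∈ N ⊓ stabilizer G α := by
      intro t ht n hn
      obtain ⟨hn1, hn2⟩ := Subgroup.mem_inf.1 hn
      refine Subgroup.mem_inf.2 ⟨?_, ?_⟩
      · have := hN.conj_mem n hn1 t⁻¹
        rwa [inv_inv] at this
      · rw [mem_stabilizer_iff, mul_smul, mul_smul, hfix t ht n hn1 hn2, inv_smul_smul]
    have hNn : N ≤ Subgroup.normalizer ((N ⊓ stabilizer G α : Subgroup G) : Set G) := by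
      have hstn : stabilizer G α ≤
          Subgroup.normalizer ((N ⊓ stabilizer G α : Subgroup G) : Set G) := by
        intro g hg
        have key : ∀ h ∈ stabilizer G α, ∀ x ∈ N ⊓ stabilizer G α,
            h * x * h⁻¹ ∈ N ⊓ stabilizer G α := by
          intro h hh x hx
          obtain ⟨hx1, hx2⟩ := Subgroup.mem_inf.1 hx
          exact Subgroup.mem_inf.2 ⟨hN.conj_mem x hx1 h, (stabilizer G α).mul_mem
            ((stabilizer G α).mul_mem hh hx2) ((stabilizer G α).inv_mem hh)⟩
        rw [Subgroup.mem_normalizer_iff]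
        intro x
        refine ⟨key g hg x, fun h => ?_⟩
        have h1 := key g⁻¹ ((stabilizer G α).inv_mem hg) _ h
        have h2 : g⁻¹ * (g * x * g⁻¹) * g⁻¹⁻¹ = x := by group
        rwa [h2] at h1
      have hTnn : T ≤ Subgroup.normalizer ((N ⊓ stabilizer G α : Subgroup G) : Set G) := by
        intro t ht
        rw [Subgroup.mem_normalizer_iff]
        intro x
        constructor
        · intro hx
          have h1 := hNT t⁻¹ (T.inv_mem ht) x hx
          rwa [inv_inv] at h1
        · intro hx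
          have h1 := hNT t ht _ hx
          have h2 : t⁻¹ * (t * x * t⁻¹) * t = x := by group
          rwa [h2] at h1
      apply hT.gen
      intro g t ht
      obtain ⟨k, hk, hkT⟩ := hconjT g
      obtain ⟨t', ht', h2⟩ := hkT t ht
      rw [h2]
      exact Subgroup.mul_mem _ (Subgroup.mul_mem _ (hstn hk) (hTnn ht')) (Subgroup.inv_mem _ (hstn hk))
    apply false_of_regular hFT hep N hN0 hmin hna
    intro n hn hnα
    apply FaithfulSMul.eq_of_smul_eq_smul (α := Ω)
    intro x
    obtain ⟨m, hm, rfl⟩ := htr x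
    have h1 := (Subgroup.mem_normalizer_iff.1 (hNn (N.inv_mem hm)) n).1
      (Subgroup.mem_inf.2 ⟨hn, hnα⟩)
    have h2 := mem_stabilizer_iff.1 (Subgroup.mem_inf.1 h1).2
    rw [inv_inv, mul_smul, mul_smul, inv_smul_eq_iff] at h2
    rw [one_smul, h2]

end Regular

end Cfsg.Agent.H386.ExtPrimTypes
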